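import Cfsg.Agent.H943.E8Alc
import Cfsg.Agent.H201.L34.Tab
import Cfsg.Agent.H251.L34.PureTab

/-!
# S5917: the pure pairs of `E₈ / 3 E₈` (helper251)

`nz v` : the number of the roots with value zero.  `pure_pair` : if `a, b, a + b, a - b` have 78 zeros (type `E₆A₂`), a
product of simple reflections maps `(a, b)` to `(V1, V2)` (common roots `A₂⁴`) or to `(V1, V3)` (common roots `D₄`).
-/

set_option autoImplicit false
set_option linter.unusedSectionVars false
set_option maxRecDepth 100000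

namespace Cfsg.Agent.H251.L34

open Cfsg.Agent.ChevalleyStructure.CoxeterGeom Cfsg.Agent.Tits.Roots
  Cfsg.Agent.Nodes.RGDChev
open Cfsg.Lie Cfsg.Agent.ChevalleyStructure Cfsg.Agent.ChevalleyStructure.Elts
  Cfsg.Agent.ChevalleyStructure.RootVec Cfsg.Agent.ChevalleyStructure.RootVecTab
  Cfsg.Agent.ChevalleyStructure.NPerm Cfsg.Agent.ChevalleyStructure.CoxeterGeomTypes
open Cfsg.Agent.H944.RootVals Cfsg.Agent.H944.Kac Cfsg.Agent.H944.Tab Cfsg.Agent.H943.E8Tab
open Cfsg.Agent.H201.L34 (V1 V2)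
open PureTab

/-- the representative of the second orbit (common roots `D₄`) -/
def V3 : Fin 8 → ZMod 3 := ![1, 0, 0, 0, 0, 1, 0, 1]

/-- the number of the roots with value zero -/
def nz (v : Fin 8 → ZMod 3) : ℕ := (ms chevE8 8 v).count 0

/-- the product of simple reflections -/
def wd (L : List (Fin 8)) (v : Fin 8 → ZMod 3) : Fin 8 → ZMod 3 := L.foldr (fun j v => srefl chevE8 8 j v) v

theorem wd_nil (v : Fin 8 → ZMod 3) : wd [] v = v := rfl

theorem wd_cons (j : Fin 8) (L : List (Fin 8)) (v : Fin 8 → ZMod 3) : wd (j :: L) v = srefl chevE8 8 j (wd L v) := rfl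

theorem wd_append (L L' : List (Fin 8)) (v : Fin 8 → ZMod 3) : wd (L ++ L') v = wd L (wd L' v) := by
  unfold wd
  rw [List.foldr_append]

theorem ms_wd (L : List (Fin 8)) (v : Fin 8 → ZMod 3) : ms chevE8 8 (wd L v) = ms chevE8 8 v := by
  induction L with
  | nil => rfl
  | cons j L ih => rw [wd_cons, ms_srefl e8T, ih]

theorem nz_wd (L : List (Fin 8)) (v : Fin 8 → ZMod 3) : nz (wd L v) = nz v := by
  unfold nz
  rw [ms_wd]

/-- a simple reflection as a linear map -/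
def sl (j : Fin 8) : (Fin 8 → ZMod 3) →ₗ[ZMod 3] (Fin 8 → ZMod 3) where
  toFun := srefl chevE8 8 j
  map_add' u v := by
    funext i
    unfold srefl
    simp only [Pi.add_apply]
    ring
  map_smul' c v := by
    funext i
    unfold srefl
    simp only [Pi.smul_apply, smul_eq_mul, RingHom.id_apply]
    ring

/-- a product of simple reflections as a linear map -/
def wl : List (Fin 8) → (Fin 8 → ZMod 3) →ₗ[ZMod 3] (Fin 8 → ZMod 3)
  | [] => LinearMap.id
  | j :: L => (sl j).comp (wl L)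

theorem wl_apply (L : List (Fin 8)) (v : Fin 8 → ZMod 3) : wl L v = wd L v := by
  induction L with
  | nil => rfl
  | cons j L ih => rw [wl, LinearMap.comp_apply, ih]; rfl

theorem wd_add (L : List (Fin 8)) (u v : Fin 8 → ZMod 3) : wd L (u + v) = wd L u + wd L v := by
  rw [← wl_apply, map_add, wl_apply, wl_apply]

theorem wd_sub (L : List (Fin 8)) (u v : Fin 8 → ZMod 3) : wd L (u - v) = wd L u - wd L v := by
  rw [← wl_apply, map_sub, wl_apply, wl_apply]

/-- a simple reflection on lists -/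
def act (j : ℕ) (x : List ℕ) : List ℕ :=
  (List.range 8).map fun i => (x.getD i 0 + (Bm.getD j []).getD i 0 * x.getD j 0) % 3

theorem bm_eq : ∀ i j : Fin 8, ((cartanOf chevE8 8 j i : ℤ) : ZMod 3) = -(((Bm.getD j []).getD i 0 : ℕ) : ZMod 3) := by
  decide +kernel

theorem getD_map_range (f : ℕ → ℕ) (i : Fin 8) : ((List.range 8).map f).getD i 0 = f i := by
  rw [List.getD_eq_getElem _ _ (by rw [List.length_map, List.length_range]; exact i.2), List.getElem_map,
    List.getElem_range]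

theorem vecOf_act (j : Fin 8) (x : List ℕ) : vecOf 3 (act j x) = srefl chevE8 8 j (vecOf 3 x) := by
  funext i
  unfold vecOf srefl act
  rw [getD_map_range, bm_eq, ZMod.natCast_mod]
  push_cast
  ring

/-- the reflection in the highest root on lists -/
def tht (x : List ℕ) : List ℕ :=
  (List.range 8).map fun i => (x.getD i 0 + [0, 0, 0, 0, 0, 0, 0, 2].getD i 0 * dotN th8 x) % 3

/-- the word of the reflection in the highest root -/
def wt8 : List (Fin 8) := wt.map fun n => Fin.ofNat 8 n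

/-- the unit vectors -/
def unt (k : ℕ) : List ℕ := (List.range 8).map fun i => if i = k then 1 else 0

theorem wt_unt : ((List.range 8).all fun k => wt.foldr act (unt k) == tht (unt k)) = true := by decide +kernel

theorem vecOf_foldr (L : List ℕ) (hL : ∀ j ∈ L, j < 8) (x : List ℕ) :
    vecOf 3 (L.foldr act x) = wd (L.map fun n => Fin.ofNat 8 n) (vecOf 3 x) := by
  induction L with
  | nil => rfl
  | cons j L ih =>
    have hj : j < 8 := hL j (by simp)
    have e : ((Fin.ofNat 8 j : Fin 8) : ℕ) = j := by simp [Fin.ofNat, Nat.mod_eq_of_lt hj]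
    rw [List.foldr_cons, List.map_cons, wd_cons, ← ih fun k hk => hL k (by simp [hk]), ← vecOf_act, e]

/-- the reflection in the highest root -/
def thl : (Fin 8 → ZMod 3) →ₗ[ZMod 3] (Fin 8 → ZMod 3) where
  toFun v := fun i => v i + ((([0, 0, 0, 0, 0, 0, 0, 2].getD i 0 : ℕ) : ZMod 3)) * dotF th8 v
  map_add' u v := by
    funext i
    unfold dotF
    simp only [Pi.add_apply, mul_add, Finset.sum_add_distrib]
    ring
  map_smul' c v := by
    funext i
    unfold dotF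
    simp only [Pi.smul_apply, smul_eq_mul, RingHom.id_apply]
    have h : ∀ j : Fin 8, ((th8.getD j 0 : ℕ) : ZMod 3) * (c * v j) = c * (((th8.getD j 0 : ℕ) : ZMod 3) * v j) :=
      fun j => by ring
    simp only [h]
    rw [← Finset.mul_sum]
    ring

theorem vecOf_tht (x : List ℕ) : vecOf 3 (tht x) = thl (vecOf 3 x) := by
  funext i
  show ((((List.range 8).map fun i => _).getD i 0 : ℕ) : ZMod 3) = _ + _ * dotF th8 (vecOf 3 x)
  rw [dotF_vecOf (by decide), getD_map_range, ZMod.natCast_mod]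
  unfold vecOf
  push_cast
  ring

theorem vecOf_unt (k : Fin 8) : vecOf 3 (unt k) = Pi.single k 1 := by
  funext i
  unfold vecOf unt
  rw [getD_map_range]
  by_cases h : i = k
  · subst h; simp
  · rw [if_neg (fun h' => h (Fin.ext h')), Pi.single_eq_of_ne h]; simp

theorem wl_wt8 : wl wt8 = thl := by
  refine (Pi.basisFun (ZMod 3) (Fin 8)).ext fun k => ?_
  rw [Pi.basisFun_apply, ← vecOf_unt, wl_apply, ← vecOf_tht]
  have h := wt_unt
  rw [List.all_eq_true] at h
  have h1 := h k (List.mem_range.2 k.2)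
  rw [beq_iff_eq] at h1
  rw [← h1, vecOf_foldr _ (by decide)]
  rfl

/-- the generators of the stabiliser of `V1` on lists -/
def gen (g : ℕ) (x : List ℕ) : List ℕ := if g < 8 then act g x else tht x

theorem vecOf_gen {g : ℕ} (x : List ℕ) : ∃ L : List (Fin 8), vecOf 3 (gen g x) = wd L (vecOf 3 x) ∧
    ∀ y : List ℕ, vecOf 3 (gen g y) = wd L (vecOf 3 y) := by
  by_cases hg : g < 8
  · refine ⟨[⟨g, hg⟩], ?_, fun y => ?_⟩
    · rw [gen, if_pos hg]; exact vecOf_act ⟨g, hg⟩ x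
    · rw [gen, if_pos hg]; exact vecOf_act ⟨g, hg⟩ y
  · refine ⟨wt8, ?_, fun y => ?_⟩
    · rw [gen, if_neg hg, vecOf_tht, ← wl_wt8, wl_apply]
    · rw [gen, if_neg hg, vecOf_tht, ← wl_wt8, wl_apply]

/-- the digits of a code -/
def dg (c : ℕ) : List ℕ := [c % 3, c / 3 % 3, c / 9 % 3, c / 27 % 3, c / 81 % 3, c / 243 % 3, c / 729 % 3, c / 2187 % 3]

/-- the entry `k` of the table -/
def ent (k : ℕ) : ℕ × ℕ × ℕ := tab.getD k (0, 0, 0)

/-- the check of one entry -/
def chk1 (k : ℕ) : Bool :=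
  let e := ent k
  if e.2.1 = 9 then e.1 == 1485 || e.1 == 2431
  else Nat.blt e.2.2 k && (gen e.2.1 (dg e.1) == dg (ent e.2.2).1) && (gen e.2.1 (dg 729) == dg 729)

theorem chk1_tab : ((List.range 780).all chk1) = true := by decide +kernel

theorem V1_dg : vecOf 3 (dg 729) = V1 := by decide +kernel

theorem V2_dg : vecOf 3 (dg 1485) = V2 := by decide +kernel

theorem V3_dg : vecOf 3 (dg 2431) = V3 := by decide +kernel

theorem walk (k : ℕ) : k < 780 → ∃ L : List (Fin 8), wd L V1 = V1 ∧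
    (wd L (vecOf 3 (dg (ent k).1)) = V2 ∨ wd L (vecOf 3 (dg (ent k).1)) = V3) := by
  induction k using Nat.strong_induction_on with
  | _ k ih =>
    intro hk
    have h := chk1_tab
    rw [List.all_eq_true] at h
    have h1 := h k (List.mem_range.2 hk)
    unfold chk1 at h1
    by_cases h9 : (ent k).2.1 = 9
    · simp only [h9, if_true, Bool.or_eq_true, beq_iff_eq] at h1
      refine ⟨[], rfl, ?_⟩
      rcases h1 with h1 | h1
      · left; rw [h1]; exact V2_dg
      · right; rw [h1]; exact V3_dg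
    · simp only [h9, if_false, Bool.and_eq_true, beq_iff_eq] at h1
      obtain ⟨⟨h2, h3⟩, h4⟩ := h1
      have h2' : (ent k).2.2 < k := (Nat.blt_eq ..).mp h2
      obtain ⟨L, hL1, hL2⟩ := ih _ h2' (by omega)
      obtain ⟨L', hL', hL''⟩ := vecOf_gen (g := (ent k).2.1) (dg (ent k).1)
      refine ⟨L ++ L', ?_, ?_⟩
      · have := hL'' (dg 729)
        rw [h4, V1_dg] at this
        rw [wd_append, ← this, hL1]
      · rw [wd_append, ← hL', h3]
        exact hL2

/-! ### the quadratic form -/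

/-- the quadratic form of `E₈` on the values on the simple roots -/
def Q (v : Fin 8 → ZMod 3) : ZMod 3 :=
  2 * v 0 * v 0 + 4 * v 1 * v 1 + 7 * v 2 * v 2 + 15 * v 3 * v 3 + 10 * v 4 * v 4 + 6 * v 5 * v 5 + 3 * v 6 * v 6 +
    v 7 * v 7 +
  (5 * v 1 + 7 * v 2 + 10 * v 3 + 8 * v 4 + 6 * v 5 + 4 * v 6 + 2 * v 7) * v 0 +
  (10 * v 2 + 15 * v 3 + 12 * v 4 + 9 * v 5 + 6 * v 6 + 3 * v 7) * v 1 +
  (20 * v 3 + 16 * v 4 + 12 * v 5 + 8 * v 6 + 4 * v 7) * v 2 +
  (24 * v 4 + 18 * v 5 + 12 * v 6 + 6 * v 7) * v 3 + (15 * v 5 + 10 * v 6 + 5 * v 7) * v 4 + (8 * v 6 + 4 * v 7) * v 5 +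
  3 * v 7 * v 6

/-- the scalar product with `V1` -/
def ln (v : Fin 8 → ZMod 3) : ZMod 3 :=
  4 * v 0 + 6 * v 1 + 8 * v 2 + 12 * v 3 + 10 * v 4 + 8 * v 5 + 6 * v 6 + 3 * v 7

/-- the Cartan matrix -/
def CM : Fin 8 → Fin 8 → ℤ := ![![2, 0, -1, 0, 0, 0, 0, 0], ![0, 2, 0, -1, 0, 0, 0, 0], ![-1, 0, 2, -1, 0, 0, 0, 0],
  ![0, -1, -1, 2, -1, 0, 0, 0], ![0, 0, 0, -1, 2, -1, 0, 0], ![0, 0, 0, 0, -1, 2, -1, 0], ![0, 0, 0, 0, 0, -1, 2, -1],
  ![0, 0, 0, 0, 0, 0, -1, 2]]

theorem cm : ∀ i j : Fin 8, cartanOf chevE8 8 i j = CM i j := by decide +kernel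

theorem srefl_CM (j : Fin 8) (v : Fin 8 → ZMod 3) (i : Fin 8) : srefl chevE8 8 j v i = v i - (CM j i : ZMod 3) * v j := by
  unfold srefl
  rw [cm]

theorem Q_srefl (j : Fin 8) (v : Fin 8 → ZMod 3) : Q (srefl chevE8 8 j v) = Q v := by
  unfold Q
  simp only [srefl_CM]
  fin_cases j <;> simp [CM] <;> ring

theorem Q_wd (L : List (Fin 8)) (v : Fin 8 → ZMod 3) : Q (wd L v) = Q v := by
  induction L with
  | nil => rfl
  | cons j L ih => rw [wd_cons, Q_srefl, ih]

theorem Q_add (v : Fin 8 → ZMod 3) : Q (V1 + v) = Q V1 + Q v + ln v := by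
  unfold Q ln V1
  simp only [Pi.add_apply]
  simp
  ring

theorem alc3 : allAlc th8 3 (fun y => (y == [0, 0, 0, 0, 0, 0, 0, 0] || y == [1, 0, 0, 0, 0, 0, 0, 0] ||
    y == [0, 1, 0, 0, 0, 0, 0, 0] || y == [0, 0, 0, 0, 0, 0, 1, 0] || y == [0, 0, 0, 0, 0, 0, 0, 1])) = true := by
  decide +kernel

theorem nz_vecOf (Y : List ℕ) : nz (vecOf 3 Y) = (R8.map fun r => (if ((dotN r Y : ℕ) : ZMod 3) = 0 then 1 else 0) +
    (if -((dotN r Y : ℕ) : ZMod 3) = 0 then 1 else 0)).sum := by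
  unfold nz
  rw [count_eq_sum, sum_vecOf]

theorem nz_a : nz (vecOf 3 [0, 0, 0, 0, 0, 0, 0, 0]) = 240 := by rw [nz_vecOf]; decide +kernel
theorem nz_b : nz (vecOf 3 [1, 0, 0, 0, 0, 0, 0, 0]) = 84 := by rw [nz_vecOf]; decide +kernel
theorem nz_c : nz (vecOf 3 [0, 1, 0, 0, 0, 0, 0, 0]) = 72 := by rw [nz_vecOf]; decide +kernel
theorem nz_d : nz (vecOf 3 [0, 0, 0, 0, 0, 0, 0, 1]) = 126 := by rw [nz_vecOf]; decide +kernel

/-- **a vector with 78 zeros is conjugate to `V1`** -/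
theorem exists_V1 {v : Fin 8 → ZMod 3} (hv : nz v = 78) : ∃ L, wd L v = V1 := by
  obtain ⟨Y, hYl, hYθ, L, hL⟩ := alcove8 (N := 3) (by norm_num) (fun w => ∃ L, wd L v = w)
    (fun w j ⟨L, h⟩ => ⟨j :: L, by rw [wd_cons, h]⟩) (v₀ := v) ⟨[], rfl⟩
  have h1 := allAlc_spec th8 3 _ (by decide) alc3 Y hYl hYθ
  simp only [Bool.or_eq_true, beq_iff_eq] at h1
  have h2 : nz (vecOf 3 Y) = 78 := by rw [← hL, nz_wd, hv]
  rcases h1 with (((h1 | h1) | h1) | h1) | h1
  · rw [h1, nz_a] at h2; omega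
  · rw [h1, nz_b] at h2; omega
  · rw [h1, nz_c] at h2; omega
  · refine ⟨L, ?_⟩
    rw [hL, h1]
    decide +kernel
  · rw [h1, nz_d] at h2; omega

theorem Q_V1 : Q V1 = 0 := by decide +kernel

theorem Q_of_nz {v : Fin 8 → ZMod 3} (hv : nz v = 78) : Q v = 0 := by
  obtain ⟨L, hL⟩ := exists_V1 hv
  rw [← Q_wd L, hL, Q_V1]

/-! ### the covering -/

/-- the quadratic form on lists -/
def qN : List ℕ → ℕ
  | [a, b, c, d, e, f, g, h] => (2 * a * a + b * b + c * c + e * e + h * h + (2 * b + c + d + 2 * e + g + 2 * h) * a +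
      c * b + (2 * d + e + 2 * g + h) * c + (g + 2 * h) * e + (2 * g + h) * f) % 3
  | _ => 0

/-- the scalar product with `V1` on lists -/
def lN : List ℕ → ℕ
  | [a, _, c, _, e, f, _, _] => (a + 2 * c + e + 2 * f) % 3
  | _ => 0

/-- the code of a list -/
def cd : List ℕ → ℕ
  | [a, b, c, d, e, f, g, h] => a + 3 * b + 9 * c + 27 * d + 81 * e + 243 * f + 729 * g + 2187 * h
  | _ => 0

/-- the check of one list -/
def cov (x : List ℕ) : Bool :=
  !(Nat.beq (lN x) 0) || !(Nat.beq (qN x) 0) || Nat.beq (cd x) 0 || Nat.beq (cd x) 729 || Nat.beq (cd x) 1458 ||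
    tab.any fun e => Nat.beq e.1 (cd x)

theorem cov_all : allLt 3 8 cov = true := by decide +kernel

/-- the list of a vector -/
def lst (b : Fin 8 → ZMod 3) : List ℕ :=
  [(b 0).val, (b 1).val, (b 2).val, (b 3).val, (b 4).val, (b 5).val, (b 6).val, (b 7).val]

theorem vecOf_lst (b : Fin 8 → ZMod 3) : vecOf 3 (lst b) = b := by
  funext i
  unfold vecOf lst
  fin_cases i <;> simp

theorem lst_lt (b : Fin 8 → ZMod 3) : ∀ x ∈ lst b, x < 3 := by
  intro x hx
  unfold lst at hx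
  simp only [List.mem_cons, List.not_mem_nil, or_false] at hx
  rcases hx with rfl | rfl | rfl | rfl | rfl | rfl | rfl | rfl <;> exact ZMod.val_lt _

theorem dg_cd {a b c d e f g h : ℕ} (ha : a < 3) (hb : b < 3) (hc : c < 3) (hd : d < 3) (he : e < 3) (hf : f < 3)
    (hg : g < 3) (hh : h < 3) : dg (cd [a, b, c, d, e, f, g, h]) = [a, b, c, d, e, f, g, h] := by
  unfold dg cd
  simp only [List.cons.injEq, and_true]
  refine ⟨?_, ?_, ?_, ?_, ?_, ?_, ?_, ?_⟩ <;> omega

theorem cast3 : (3 : ZMod 3) = 0 := by decide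

theorem lN_eq (b : Fin 8 → ZMod 3) : ((lN (lst b) : ℕ) : ZMod 3) = ln b := by
  unfold lst lN ln
  rw [ZMod.natCast_mod]
  push_cast
  simp only [ZMod.natCast_val, ZMod.cast_id', id_eq]
  linear_combination (-(b 0) - 2 * b 1 - 2 * b 2 - 4 * b 3 - 3 * b 4 - 2 * b 5 - 2 * b 6 - b 7) * cast3

theorem qN_eq (b : Fin 8 → ZMod 3) : ((qN (lst b) : ℕ) : ZMod 3) = Q b := by
  unfold lst qN Q
  rw [ZMod.natCast_mod]
  push_cast
  simp only [ZMod.natCast_val, ZMod.cast_id', id_eq]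
  linear_combination (-(b 1 * b 1 + 2 * b 2 * b 2 + 5 * b 3 * b 3 + 3 * b 4 * b 4 + 2 * b 5 * b 5 + b 6 * b 6 +
    (b 1 + 2 * b 2 + 3 * b 3 + 2 * b 4 + 2 * b 5 + b 6) * b 0 +
    (3 * b 2 + 5 * b 3 + 4 * b 4 + 3 * b 5 + 2 * b 6 + b 7) * b 1 +
    (6 * b 3 + 5 * b 4 + 4 * b 5 + 2 * b 6 + b 7) * b 2 +
    (8 * b 4 + 6 * b 5 + 4 * b 6 + 2 * b 7) * b 3 + (5 * b 5 + 3 * b 6 + b 7) * b 4 + (2 * b 6 + b 7) * b 5 +
    b 7 * b 6)) * cast3

theorem nz_zero : nz 0 = 240 := by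
  have : (0 : Fin 8 → ZMod 3) = vecOf 3 [0, 0, 0, 0, 0, 0, 0, 0] := by
    funext i
    fin_cases i <;> rfl
  rw [this, nz_a]

theorem exists_of_cov {b : Fin 8 → ZMod 3} (h0 : b ≠ 0) (h1 : b ≠ V1) (h2 : b ≠ -V1) (hq : Q b = 0) (hl : ln b = 0) :
    ∃ L : List (Fin 8), wd L V1 = V1 ∧ (wd L b = V2 ∨ wd L b = V3) := by
  have hc : cov (lst b) = true := allLt_spec 3 8 cov cov_all (lst b) rfl (lst_lt b)
  have hl' : lN (lst b) = 0 := by
    have h3 := lN_eq b
    rw [hl, ZMod.natCast_eq_zero_iff] at h3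
    have h4 : lN (lst b) < 3 := by
      unfold lst lN
      exact Nat.mod_lt _ (by norm_num)
    exact Nat.eq_zero_of_dvd_of_lt h3 h4
  have hq' : qN (lst b) = 0 := by
    have h3 := qN_eq b
    rw [hq, ZMod.natCast_eq_zero_iff] at h3
    have h4 : qN (lst b) < 3 := by
      unfold lst qN
      exact Nat.mod_lt _ (by norm_num)
    exact Nat.eq_zero_of_dvd_of_lt h3 h4
  have hd : dg (cd (lst b)) = lst b := by
    unfold lst
    exact dg_cd (ZMod.val_lt _) (ZMod.val_lt _) (ZMod.val_lt _) (ZMod.val_lt _) (ZMod.val_lt _) (ZMod.val_lt _)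
      (ZMod.val_lt _) (ZMod.val_lt _)
  have hne : ∀ c : ℕ, cd (lst b) = c → b = vecOf 3 (dg c) := by
    intro c hc
    rw [← hc, hd, vecOf_lst]
  unfold cov at hc
  simp only [hl', hq', Nat.beq_eq, Bool.or_eq_true, Bool.not_eq_true', List.any_eq_true] at hc
  rcases hc with (((((hc | hc) | hc) | hc) | hc) | hc)
  · exact absurd hc (by decide)
  · exact absurd hc (by decide)
  · exact absurd ((hne 0 hc).trans (by decide +kernel)) h0
  · exact absurd ((hne 729 hc).trans V1_dg) h1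
  · exact absurd ((hne 1458 hc).trans (by decide +kernel)) h2
  · obtain ⟨e, he, hec⟩ := hc
    obtain ⟨k, hk, hke⟩ := List.getElem_of_mem he
    have hlen : tab.length = 780 := by decide +kernel
    have hent : ent k = e := by
      unfold ent
      rw [List.getD_eq_getElem _ _ hk, hke]
    obtain ⟨L, hL1, hL2⟩ := walk k (by omega)
    refine ⟨L, hL1, ?_⟩
    rw [hent, hec, hd, vecOf_lst] at hL2
    exact hL2

/-- **the pure pairs** -/
theorem pure_pair {a b : Fin 8 → ZMod 3} (ha : nz a = 78) (hb : nz b = 78) (hab : nz (a + b) = 78)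
    (hab' : nz (a - b) = 78) : ∃ L : List (Fin 8), L.foldr (fun j v => srefl chevE8 8 j v) a = V1 ∧
      (L.foldr (fun j v => srefl chevE8 8 j v) b = V2 ∨ L.foldr (fun j v => srefl chevE8 8 j v) b = V3) := by
  obtain ⟨L₁, h₁⟩ := exists_V1 ha
  have hb' : nz (wd L₁ b) = 78 := by rw [nz_wd, hb]
  have hs : nz (V1 + wd L₁ b) = 78 := by rw [← h₁, ← wd_add, nz_wd, hab]
  have hd : nz (V1 - wd L₁ b) = 78 := by rw [← h₁, ← wd_sub, nz_wd, hab']
  have hq := Q_of_nz hb'
  have hl : ln (wd L₁ b) = 0 := by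
    have h3 := Q_add (wd L₁ b)
    rw [Q_of_nz hs, Q_V1, hq] at h3
    simpa using h3.symm
  have n0 : wd L₁ b ≠ 0 := by
    intro h
    rw [h, nz_zero] at hb'
    omega
  have n1 : wd L₁ b ≠ V1 := by
    intro h
    rw [h, sub_self, nz_zero] at hd
    omega
  have n2 : wd L₁ b ≠ -V1 := by
    intro h
    rw [h, add_neg_cancel, nz_zero] at hs
    omega
  obtain ⟨L₂, h₂, h₃⟩ := exists_of_cov n0 n1 n2 hq hl
  refine ⟨L₂ ++ L₁, ?_, ?_⟩
  · show wd (L₂ ++ L₁) a = V1
    rw [wd_append, h₁, h₂]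
  · show wd (L₂ ++ L₁) b = V2 ∨ wd (L₂ ++ L₁) b = V3
    rw [wd_append]
    exact h₃

end Cfsg.Agent.H251.L34
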