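import Cfsg.Agent.H251.L34.TabDDat
import Cfsg.Agent.H251.L34.Pure

/-!
# S5917, type D: the roots of the frame `D₄ T₄` (helper251)

`root_cases` : every root is `dr b`, `mt X w k` or `dp w i`; values of `V1, V3`; the brackets of `er (dr b)` with the
root vectors of the three 8-dimensional modules of `D₄` (one table `rtb X` for all characters `w`), orthogonality of `D₄`
and `dp`.
-/

set_option autoImplicit false
set_option maxRecDepth 100000

namespace Cfsg.Agent.H251.L34

open Cfsg Cfsg.Lie Cfsg.Lie.ChevalleyDatum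
open Cfsg.Agent.ChevalleyStructure Cfsg.Agent.ChevalleyStructure.LieAbs
open Cfsg.Agent.ChevalleyStructure.Columns (car cor)
open Cfsg.Agent.H939.L64 Cfsg.Agent.H413.L16 Cfsg.Agent.H201.L34
open Cfsg.Agent.ChevalleyStructure.RootVec (rt)

theorem V3_eq : V3 = ![1, 0, 0, 0, 0, 1, 0, 1] := rfl

theorem dr_lt : ∀ b, dr b < 240 := by decide +kernel

theorem mt_lt : ∀ X w k, mt X w k < 240 := by decide +kernel

theorem dp_lt : ∀ w i, dp w i < 240 := by decide +kernel

theorem nodup_all : (DRL ++ MTL ++ DPL).Nodup := by decide +kernel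

theorem root_cases' : ∀ s : Fin 240, (∃ b, (s : ℕ) = dr b) ∨ (∃ X w k, (s : ℕ) = mt X w k) ∨ ∃ w i, (s : ℕ) = dp w i := by
  decide +kernel

/-- **the roots** -/
theorem root_cases {s : ℕ} (hs : s < 240) : (∃ b, s = dr b) ∨ (∃ X w k, s = mt X w k) ∨ ∃ w i, s = dp w i :=
  root_cases' ⟨s, hs⟩

theorem dr_inj : Function.Injective dr := by decide +kernel

theorem mt_inj : ∀ X w k X' w' k', mt X w k = mt X' w' k' → X = X' ∧ w = w' ∧ k = k' := by decide +kernel

theorem dp_inj : ∀ w i w' i', dp w i = dp w' i' → w = w' ∧ i = i' := by decide +kernel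

theorem mt_ne_dr : ∀ X w k b, mt X w k ≠ dr b := by decide +kernel

theorem dp_ne_dr : ∀ w i b, dp w i ≠ dr b := by decide +kernel

theorem dp_ne_mt : ∀ w i X v k, dp w i ≠ mt X v k := by decide +kernel

/-- negatives -/
theorem neg_dr : ∀ b, ∃ b', 239 - dr b = dr b' := by decide +kernel

theorem neg_mt : ∀ X w k, 239 - mt X w k = mt X (nw w) (nk k) := by decide +kernel

theorem neg_dp : ∀ w i, 239 - dp w i = dp (nw w) i := by decide +kernel

theorem nw_nw : ∀ w, nw (nw w) = w := by decide +kernel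

theorem nw_ne : ∀ w, nw w ≠ w := by decide +kernel

/-- values -/
theorem val_dr : ∀ b, w1 (dr b) = 0 ∧ w3 (dr b) = 0 := by decide +kernel

theorem val_mt : ∀ X w k, w1 (mt X w k) = (((w : ℕ) + 1) / 3 : ℕ) ∧ w3 (mt X w k) = (((w : ℕ) + 1) % 3 : ℕ) := by
  decide +kernel

theorem val_dp : ∀ w i, w1 (dp w i) = (((w : ℕ) + 1) / 3 : ℕ) ∧ w3 (dp w i) = (((w : ℕ) + 1) % 3 : ℕ) := by
  decide +kernel

/-! ### the action of `D₄` -/

theorem tg_dr_mt : ∀ X b w k, tg (dr b) (mt X w k) =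
    (if h : rtb X b k < 8 then mt X w ⟨rtb X b k, h⟩ else 240) ∧ mt X w k ≠ 239 - dr b := by decide +kernel

theorem tg_dr_dp : ∀ b w i, tg (dr b) (dp w i) = 240 ∧ dp w i ≠ 239 - dr b := by decide +kernel

/-- **the root vectors of `D₄` on the 8-dimensional modules** -/
theorem br_dr_mt (X : Fin 3) (b : Fin 24) (w k : Fin 8) : brK (er (dr b)) (er (mt X w k)) =
    if h : rtb X b k < 8 then er (mt X w ⟨rtb X b k, h⟩) else 0 := by
  obtain ⟨h1, h2⟩ := tg_dr_mt X b w k
  rw [br_rr (dr_lt b) (mt_lt X w k) h2, h1]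
  split_ifs with h
  · rfl
  · exact er_ge le_rfl

theorem br_dr_dp (b : Fin 24) (w : Fin 8) (i : Fin 3) : brK (er (dr b)) (er (dp w i)) = 0 := by
  obtain ⟨h1, h2⟩ := tg_dr_dp b w i
  rw [br_rr (dr_lt b) (dp_lt w i) h2, h1]
  exact er_ge le_rfl

/-- the parity of the product of the root `b` of `D₄` with the weight `k` -/
def cc (X : Fin 3) (b : Fin 24) (k : Fin 8) : Bool := decide ((∑ m : Fin 8, cor chevE8 (dr b) m * car chevE8 m (mt X 0 k)) % 2 ≠ 0)

theorem cc_spec : ∀ X b w k, ((∑ m : Fin 8, cor chevE8 (dr b) m * car chevE8 m (mt X w k)) - if cc X b k then 1 else 0) % 2 = 0 := by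
  decide +kernel

theorem cc_dp : ∀ b w i, (∑ m : Fin 8, cor chevE8 (dr b) m * car chevE8 m (dp w i)) % 2 = 0 := by decide +kernel

theorem br_hr_gen {r s : ℕ} (hs : s < 240) : brK (hr r) (er s) =
    ((∑ m : Fin 8, cor chevE8 r m * car chevE8 m s : ℤ) : KK) • er s := by
  unfold hr
  rw [br_hv _ hs]
  congr 1
  push_cast
  rfl

/-- the coroots of `D₄` on the 8-dimensional modules -/
theorem br_hr_mt (X : Fin 3) (b : Fin 24) (w k : Fin 8) : brK (hr (dr b)) (er (mt X w k)) =
    (if cc X b k then (1 : KK) else 0) • er (mt X w k) := by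
  rw [br_hr_gen (mt_lt X w k), cast_congr (cc_spec X b w k)]
  split_ifs <;> simp

theorem br_hr_dp (b : Fin 24) (w : Fin 8) (i : Fin 3) : brK (hr (dr b)) (er (dp w i)) = 0 := by
  rw [br_hr_gen (dp_lt w i), cast_even (cc_dp b w i), zero_smul]

end Cfsg.Agent.H251.L34
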